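import Mathlib
import Cfsg.Agent.H665.RIM.Defs
import Cfsg.Agent.Characters.Core

/-!
# S4816: `NBall p S` kills the bad quasi-simple groups over `S` (helper756)

* `nb_kills` : `QBad p N φ → ¬ NBall p (E ⧸ center E)`;
* `nball_equiv` : `NBall p` only depends on the isomorphism type;
* `nb_kills_equiv` : `QBad p N φ`, `e : E ⧸ center E ≃* S` : `¬ NBall p S`.
-/

set_option autoImplicit false
set_option linter.unusedSectionVars false
set_option linter.style.haveILetI false

open Cfsg

namespace Cfsg.Agent.H756.RIM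

open Cfsg.Agent.H229.RIM Cfsg.Agent.H665.RIM
open scoped commutatorElement

universe u v

/-- a linear character of a subgroup of a finite abelian group extends -/
theorem exists_ext {A : Type*} [CommGroup A] [Finite A] (B : Subgroup A) (φ : B →* ℂˣ) :
    ∃ μ : A →* ℂˣ, ∀ b : B, μ b = φ b := by
  obtain ⟨μ, hμ⟩ := MonoidHom.domRestrict_surjective (M := ℂ) B φ
  exact ⟨μ, fun b => by rw [← hμ]; rfl⟩

/-- version for a subgroup of the centre -/
theorem exists_ext_center {E : Type*} [Group E] [Finite E] (N : Subgroup E) (hN : N ≤ Subgroup.center E)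
    (φ : N →* ℂˣ) : ∃ μ : Subgroup.center E →* ℂˣ, ∀ n : N, μ ⟨n, hN n.2⟩ = φ n := by
  letI : CommGroup (Subgroup.center E) :=
    { (inferInstance : Group (Subgroup.center E)) with
      mul_comm := fun a b => Subtype.ext (Subgroup.mem_center_iff.1 b.2 a) }
  obtain ⟨μ, hμ⟩ := exists_ext (A := Subgroup.center E) (N.subgroupOf (Subgroup.center E))
    (φ.comp ((Subgroup.subgroupOfEquivOfLe hN).toMonoidHom))
  refine ⟨μ, fun n => ?_⟩
  exact hμ ⟨⟨n, hN n.2⟩, Subgroup.mem_subgroupOf.2 n.2⟩

/-- every irreducible character over `φ` on `E / ker μ` -/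
theorem nb_apply {p m : ℕ} {S : Type u} [Group S] (h : NB p m S) {E : Type u} [Group E] [Finite E] (π : E →* S)
    (hs : Function.Surjective π) (hk : π.ker ≤ Subgroup.center E) (hperf : commutator E = ⊤)
    (μ : π.ker →* ℂˣ) (hm : μ.ker.index = m) :
    ∃ χ : E → ℂ, IsIrrCharacter E χ ∧ (∀ z : π.ker, χ z = χ 1 * μ z) ∧ p ∣ charDegree χ := by
  classical
  let K : Subgroup E := μ.ker.map π.ker.subtype
  have hKk : K ≤ π.ker := by
    rintro _ ⟨x, -, rfl⟩
    exact x.2
  have hKmem : ∀ z : π.ker, (z : E) ∈ K ↔ μ z = 1 := by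
    intro z
    constructor
    · rintro ⟨x, hx, hxz⟩
      have : x = z := Subtype.ext hxz
      rw [← this]
      exact hx
    · intro hz
      exact ⟨z, hz, rfl⟩
  haveI hKn : K.Normal := ⟨fun n hn g => by
    have h1 := Subgroup.mem_center_iff.1 (hk (hKk hn)) g
    rwa [h1, mul_inv_cancel_right]⟩
  let ρ : (E ⧸ K) →* S := QuotientGroup.lift K π hKk
  have hρ : ∀ x : E, ρ (x : E ⧸ K) = π x := fun x => rfl
  have hρs : Function.Surjective ρ := fun s => by
    obtain ⟨x, rfl⟩ := hs s
    exact ⟨(x : E ⧸ K), rfl⟩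
  have hρk : ρ.ker ≤ Subgroup.center (E ⧸ K) := by
    intro y hy
    obtain ⟨x, rfl⟩ := QuotientGroup.mk'_surjective K y
    have hx : x ∈ π.ker := hy
    rw [Subgroup.mem_center_iff]
    intro g
    obtain ⟨g, rfl⟩ := QuotientGroup.mk'_surjective K g
    rw [← map_mul, ← map_mul, Subgroup.mem_center_iff.1 (hk hx) g]
  let f : π.ker →* ρ.ker :=
    { toFun := fun z => ⟨QuotientGroup.mk' K z, by
        have : π z = 1 := z.2
        exact this⟩
      map_one' := Subtype.ext (map_one _)
      map_mul' := fun a b => Subtype.ext (map_mul _ _ _) }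
  have hfs : Function.Surjective f := by
    rintro ⟨y, hy⟩
    obtain ⟨x, rfl⟩ := QuotientGroup.mk'_surjective K y
    exact ⟨⟨x, hy⟩, rfl⟩
  have hfk : ∀ z, f z = 1 ↔ μ z = 1 := by
    intro z
    rw [← hKmem z, ← QuotientGroup.eq_one_iff]
    constructor
    · intro h
      exact congrArg Subtype.val h
    · intro h
      exact Subtype.ext h
  have hfk' : f.ker = μ.ker := by
    ext z
    exact hfk z
  have hcard : Nat.card ρ.ker = m := by
    rw [← hm, ← hfk', Subgroup.index_ker, MonoidHom.range_eq_top.2 hfs, Subgroup.card_top]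
  let l : ρ.ker →* ℂˣ := f.liftOfSurjective hfs ⟨μ, hfk'.le⟩
  have hl : ∀ z, l (f z) = μ z := fun z => MonoidHom.liftOfRightInverse_comp_apply _ _ _ _ _
  have hinj : Function.Injective l := by
    rw [injective_iff_map_eq_one]
    intro y hy
    obtain ⟨z, rfl⟩ := hfs y
    rw [hl] at hy
    exact (hfk z).2 hy
  have hpf : commutator (E ⧸ K) = ⊤ := by
    have h1 : (commutator E).map (QuotientGroup.mk' K) = commutator (E ⧸ K) := by
      rw [commutator_def, commutator_def, Subgroup.map_commutator,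
        Subgroup.map_top_of_surjective _ (QuotientGroup.mk'_surjective K)]
    rw [← h1, hperf, Subgroup.map_top_of_surjective _ (QuotientGroup.mk'_surjective K)]
  obtain ⟨χ, hχ, hχl, hχp⟩ := h (E ⧸ K) ρ hρs hρk hpf hcard l hinj
  refine ⟨χ ∘ QuotientGroup.mk' K, Cfsg.Agent.Characters.Core.isIrr_comp _ (QuotientGroup.mk'_surjective K) hχ,
    fun z => ?_, ?_⟩
  · have h1 := hχl (f z)
    rw [hl] at h1
    have h2 : QuotientGroup.mk' K (1 : E) = 1 := map_one _
    simp only [Function.comp_apply, h2]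
    exact h1
  · have h2 : QuotientGroup.mk' K (1 : E) = 1 := map_one _
    unfold charDegree at hχp ⊢
    simp only [Function.comp_apply, h2]
    exact hχp

/-- `NB` for a group isomorphic to `S` (possibly in the same universe only) -/
theorem nb_equiv {p m : ℕ} {S T : Type u} [Group S] [Group T] (e : S ≃* T) (h : NB p m S) : NB p m T := by
  intro E _ _ π hs hk hp hm l hl
  let ρ : E →* S := e.symm.toMonoidHom.comp π
  have hρ : ρ.ker = π.ker := by
    ext x
    simp only [ρ, MonoidHom.mem_ker, MonoidHom.comp_apply, MulEquiv.coe_toMonoidHom]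
    exact map_eq_one_iff _ e.symm.injective
  have hρs : Function.Surjective ρ := e.symm.surjective.comp hs
  subst hm
  obtain ⟨χ, h1, h2, h3⟩ := h E ρ hρs (hρ ▸ hk) hp (by rw [hρ])
    (l.comp (MulEquiv.subgroupCongr hρ).toMonoidHom) (hl.comp (MulEquiv.subgroupCongr hρ).injective)
  exact ⟨χ, h1, fun z => h2 ⟨z, hρ.ge z.2⟩, h3⟩

theorem nball_equiv {p : ℕ} {S T : Type u} [Group S] [Group T] (e : S ≃* T) (h : NBall p S) : NBall p T :=
  fun m hm hpm => nb_equiv e (h m hm hpm)

/-- **the bridge**: `NBall p S` kills the bad quasi-simple groups over `S`. -/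
theorem nb_kills {p : ℕ} {E : Type u} [Group E] [Finite E] {N : Subgroup E} {φ : N →* ℂˣ}
    (h : QBad p N φ) : ¬ NBall p (E ⧸ Subgroup.center E) := by
  intro hN
  obtain ⟨μ₀, hμ₀⟩ := exists_ext_center N h.cen φ
  let π : E →* E ⧸ Subgroup.center E := QuotientGroup.mk' _
  have hker : π.ker = Subgroup.center E := QuotientGroup.ker_mk' _
  let μ : π.ker →* ℂˣ := μ₀.comp (MulEquiv.subgroupCongr hker).toMonoidHom
  have hμ : ∀ n : N, μ ⟨n, hker.ge <| h.cen n.2⟩ = φ n := fun n => hμ₀ n
  -- the order of the kernel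
  have hdvd : μ.ker.index ∣ Nat.card π.ker := Subgroup.index_dvd_card _
  have hp : ¬ p ∣ μ.ker.index := fun hd => h.pZ ((hd.trans hdvd).trans (by rw [hker]))
  have h2 : 2 ≤ μ.ker.index := by
    have h0 : μ.ker.index ≠ 0 := Subgroup.index_ne_zero_of_finite
    have h1 : μ.ker.index ≠ 1 := by
      intro h1
      rw [Subgroup.index_eq_one] at h1
      apply h.Nne
      rw [eq_bot_iff]
      intro n hn
      have h3 : μ ⟨n, hker.ge <| h.cen hn⟩ = 1 := by
        have : (⟨n, hker.ge <| h.cen hn⟩ : π.ker) ∈ μ.ker := h1 ▸ Subgroup.mem_top _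
        exact this
      have h4 := hμ ⟨n, hn⟩
      rw [h4] at h3
      have h5 : (⟨n, hn⟩ : N) = 1 := h.inj (by rw [h3, map_one])
      exact congrArg Subtype.val h5
    omega
  obtain ⟨χ, hχ, hχl, hχp⟩ := nb_apply (hN _ h2 hp) π (QuotientGroup.mk'_surjective _) hker.le h.perf μ rfl
  refine h.bad χ hχ (fun n => ?_) hχp
  have h1 := hχl ⟨n, hker.ge <| h.cen n.2⟩
  rw [hμ n] at h1
  exact h1

theorem nb_kills_equiv {p : ℕ} {E S : Type u} [Group E] [Finite E] [Group S] {N : Subgroup E} {φ : N →* ℂˣ}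
    (h : QBad p N φ) (e : E ⧸ Subgroup.center E ≃* S) : ¬ NBall p S :=
  fun hN => nb_kills h (nball_equiv e.symm hN)

end Cfsg.Agent.H756.RIM
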